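import Cfsg.Agent.H847.BSF.Facts
import Cfsg.Agent.H920.FP.Asm

/-!
# S5717: the facts in the shape of `H920/FP/Asm.lean` (helper847)
-/

set_option autoImplicit false

namespace Cfsg.Agent.H847.BSF

theorem Facts.form {M : Type} [Group M] {ι : Type} [Fintype ι] [DecidableEq ι] {F : Type} [Field F] [Fintype F]
    {m : M →* Matrix ι ι F} {m' : M → Matrix ι ι F} (h : Facts M m') (hm : ∀ x, m x = m' x) : H920.FP.Facts m := by
  obtain rfl : ⇑m = m' := funext hm
  exact ⟨h.norm', fun _ => h.long⟩

theorem factsSp : H920.FP.FactsSp := fun F _ _ m hm h => (facts_sp F m hm h).form fun _ => rfl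

theorem factsSU : H920.FP.FactsSU := fun F _ _ n q hF hn h => (facts_su F n q hF hn h).form fun _ => rfl

theorem factsOOdd : H920.FP.FactsOOdd := fun F _ _ m hm ho => (facts_oodd F m hm ho).form fun _ => rfl

theorem factsOPlus : H920.FP.FactsOPlus := fun F _ _ m hm => (facts_oplus F m (by omega)).form fun _ => rfl

theorem factsOMinus : H920.FP.FactsOMinus :=
  fun F _ _ m a b hm hab => (facts_ominus F m (by omega) a b hab).form fun _ => rfl

end Cfsg.Agent.H847.BSF
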